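import Mathlib
import Cfsg.Agent.H427.CsTwo

/-!
# Centralizer orders in symmetric and alternating groups divisible by a large prime (helper427)
-/

set_option autoImplicit false

namespace Cfsg.Agent.H427.Cs

open Subgroup Nat

theorem sum_cycleType_le {n : ℕ} (σ : Equiv.Perm (Fin n)) : σ.cycleType.sum ≤ n := by
  rw [Equiv.Perm.sum_cycleType]
  exact (Finset.card_le_univ _).trans (by rw [Fintype.card_fin])

theorem mem_le_sum {m : Multiset ℕ} {i : ℕ} (h : i ∈ m) : i ≤ m.sum := by
  obtain ⟨t, rfl⟩ := Multiset.exists_cons_of_mem h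
  rw [Multiset.sum_cons]
  exact Nat.le_add_right _ _

theorem count_mul_le_sum (m : Multiset ℕ) (i : ℕ) : m.count i * i ≤ m.sum := by
  have h : Multiset.replicate (m.count i) i ≤ m := Multiset.le_count_iff_replicate_le.mp le_rfl
  obtain ⟨t, ht⟩ := Multiset.le_iff_exists_add.mp h
  conv_rhs => rw [ht]
  rw [Multiset.sum_add, Multiset.sum_replicate, smul_eq_mul]
  exact Nat.le_add_right _ _

/-- **Centralizers in the symmetric group of order divisible by a large prime.** -/
theorem perm_dich {n r : ℕ} (hr : r.Prime) (h2r : n < 2 * r) (σ : Equiv.Perm (Fin n))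
    (h : r ∣ Nat.card (centralizer ({σ} : Set (Equiv.Perm (Fin n))))) :
    Nat.card (centralizer ({σ} : Set (Equiv.Perm (Fin n)))) ∣ r * (n - r)! ∨
      r ! ∣ Nat.card (centralizer ({σ} : Set (Equiv.Perm (Fin n)))) := by
  rw [Equiv.Perm.nat_card_centralizer, Fintype.card_fin] at h ⊢
  have hsum := sum_cycleType_le σ
  have h2 : ∀ i ∈ σ.cycleType, 2 ≤ i := fun i hi => Equiv.Perm.two_le_of_mem_cycleType hi
  generalize σ.cycleType = m at h hsum h2 ⊢
  rcases hr.dvd_mul.mp h with h3 | h3
  · rcases hr.dvd_mul.mp h3 with h4 | h4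
    · right
      have h5 : r ≤ n - m.sum := hr.dvd_factorial.mp h4
      exact (Dvd.dvd.mul_right (Nat.factorial_dvd_factorial h5) _).mul_right _
    · left
      obtain ⟨i, hi, hri⟩ := hr.prime.exists_mem_multiset_dvd h4
      have hin : i ≤ n := (mem_le_sum hi).trans hsum
      have hir : i = r := by
        obtain ⟨k, rfl⟩ := hri
        have hk : k < 2 := by
          by_contra hcon
          have : r * 2 ≤ r * k := Nat.mul_le_mul_left r (by omega)
          omega
        have hk0 : k ≠ 0 := by
          rintro rfl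
          have := h2 _ hi
          omega
        have : k = 1 := by omega
        rw [this, mul_one]
      subst hir
      obtain ⟨t, rfl⟩ := Multiset.exists_cons_of_mem hi
      rw [Multiset.sum_cons] at hsum
      have ht : t.sum ≤ n - i := by omega
      have hit : i ∉ t := fun hit => by
        have := mem_le_sum hit
        omega
      obtain ⟨τ, hτ⟩ := (Equiv.Perm.exists_with_cycleType_iff (Fin (n - i)) (m := t)).mpr
        ⟨by rw [Fintype.card_fin]; exact ht, fun a ha => h2 a (Multiset.mem_cons_of_mem ha)⟩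
      have h5 : Nat.card (centralizer ({τ} : Set (Equiv.Perm (Fin (n - i))))) ∣ (n - i)! := by
        have := Subgroup.card_subgroup_dvd_card (centralizer ({τ} : Set (Equiv.Perm (Fin (n - i)))))
        rwa [Nat.card_eq_fintype_card (α := Equiv.Perm (Fin (n - i))), Fintype.card_perm, Fintype.card_fin] at this
      rw [Equiv.Perm.nat_card_centralizer, hτ, Fintype.card_fin] at h5
      rw [Multiset.sum_cons, Multiset.prod_cons, Multiset.toFinset_cons,
        Finset.prod_insert (by rwa [Multiset.mem_toFinset]), Multiset.count_cons_self,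
        Multiset.count_eq_zero_of_notMem hit, zero_add, Nat.factorial_one, one_mul]
      have h6 : ∏ x ∈ t.toFinset, (Multiset.count x (i ::ₘ t))! = ∏ x ∈ t.toFinset, (Multiset.count x t)! := by
        apply Finset.prod_congr rfl
        intro x hx
        rw [Multiset.count_cons_of_ne]
        rintro rfl
        exact hit (Multiset.mem_toFinset.mp hx)
      rw [h6, show n - (i + t.sum) = n - i - t.sum by omega]
      have h7 : (n - i - t.sum)! * (i * t.prod) * ∏ x ∈ t.toFinset, (Multiset.count x t)! =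
          i * ((n - i - t.sum)! * t.prod * ∏ x ∈ t.toFinset, (Multiset.count x t)!) := by ring
      rw [h7]
      exact Nat.mul_dvd_mul_left i h5
  · exfalso
    obtain ⟨i, hi, hri⟩ := (hr.prime.dvd_finsetProd_iff _).mp h3
    have h4 : r ≤ m.count i := hr.dvd_factorial.mp hri
    have h5 := count_mul_le_sum m i
    have h6 := h2 i (Multiset.mem_toFinset.mp hi)
    have h7 : r * 2 ≤ m.count i * i := Nat.mul_le_mul h4 h6
    omega

/-- the centralizer in the alternating group has index at most two -/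
theorem card_alt_centralizer {n : ℕ} (σ : alternatingGroup (Fin n)) :
    ∃ j, j ∣ 2 ∧ Nat.card (centralizer ({(σ : Equiv.Perm (Fin n))} : Set (Equiv.Perm (Fin n)))) =
      Nat.card (centralizer ({σ} : Set (alternatingGroup (Fin n)))) * j := by
  obtain ⟨C, hC⟩ : ∃ C, C = centralizer ({(σ : Equiv.Perm (Fin n))} : Set (Equiv.Perm (Fin n))) := ⟨_, rfl⟩
  refine ⟨(alternatingGroup (Fin n)).relIndex C, ?_, ?_⟩
  · apply (Subgroup.relIndex_dvd_index_of_normal _ _).trans
    rcases Nat.lt_or_ge n 2 with h | h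
    · have : Subsingleton (Fin n) := Fin.subsingleton_iff_le_one.2 (by omega)
      have h1 : alternatingGroup (Fin n) = ⊤ := Subsingleton.elim _ _
      rw [h1, Subgroup.index_top]
      exact one_dvd _
    · have : Nontrivial (Fin n) := Fin.nontrivial_iff_two_le.mpr h
      rw [alternatingGroup.index_eq_two]
  · rw [← hC]
    have h1 : Nat.card (centralizer ({σ} : Set (alternatingGroup (Fin n)))) =
        Nat.card ((alternatingGroup (Fin n)).subgroupOf C) := by
      apply Nat.card_congr
      refine ⟨fun x => ⟨⟨x, ?_⟩, ?_⟩, fun x => ⟨⟨x, ?_⟩, ?_⟩, ?_, ?_⟩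
      · rw [hC, mem_centralizer_singleton_iff]
        exact congrArg Subtype.val (mem_centralizer_singleton_iff.mp x.2)
      · rw [mem_subgroupOf]
        exact x.1.2
      · exact mem_subgroupOf.mp x.2
      · rw [mem_centralizer_singleton_iff]
        have h2 : ((x : C) : Equiv.Perm (Fin n)) ∈ centralizer ({(σ : Equiv.Perm (Fin n))} : Set (Equiv.Perm (Fin n))) :=
          hC ▸ x.1.2
        exact Subtype.ext (mem_centralizer_singleton_iff.mp h2)
      · intro x; rfl
      · intro x; rfl
    rw [h1]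
    exact ((alternatingGroup (Fin n)).subgroupOf C).card_mul_index.symm

theorem alt_dich {n r : ℕ} (hr : r.Prime) (h2r : n < 2 * r) (σ : alternatingGroup (Fin n))
    (h : r ∣ Nat.card (centralizer ({σ} : Set (alternatingGroup (Fin n))))) :
    Nat.card (centralizer ({σ} : Set (alternatingGroup (Fin n)))) ∣ r * (n - r)! ∨
      r ! / 2 ∣ Nat.card (centralizer ({σ} : Set (alternatingGroup (Fin n)))) := by
  obtain ⟨j, hj, hjc⟩ := card_alt_centralizer σ
  rcases perm_dich hr h2r (σ : Equiv.Perm (Fin n)) (hjc ▸ h.mul_right j) with h1 | h1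
  · left
    rw [hjc] at h1
    exact (Nat.dvd_mul_right _ _).trans h1
  · right
    rw [hjc] at h1
    have h2 : r ! ∣ Nat.card (centralizer ({σ} : Set (alternatingGroup (Fin n)))) * 2 :=
      h1.trans (Nat.mul_dvd_mul_left _ hj)
    have h3 : 2 ∣ r ! := Nat.dvd_factorial two_pos hr.two_le
    obtain ⟨k, hk⟩ := h3
    rw [hk, Nat.mul_div_cancel_left _ two_pos]
    rw [hk, mul_comm] at h2
    exact Nat.dvd_of_mul_dvd_mul_right two_pos h2

/-- elements with small centralizer -/
theorem perm_exists {n r : ℕ} (hr : Odd r) (hr3 : 3 ≤ r) (l : Finset ℕ) (hl : ∀ i ∈ l, Odd i ∧ 3 ≤ i) (hrl : r ∉ l)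
    (h1 : ∑ i ∈ l, i + r ≤ n) (h2 : n ≤ ∑ i ∈ l, i + r + 1) :
    ∃ σ : Equiv.Perm (Fin n), Nat.card (centralizer ({σ} : Set (Equiv.Perm (Fin n)))) = r * ∏ i ∈ l, i ∧
      centralizer ({σ} : Set (Equiv.Perm (Fin n))) ≤ alternatingGroup (Fin n) := by
  have hs : (insert r l).val.sum = ∑ i ∈ l, i + r := by
    have h0 : (insert r l).val.sum = ∑ i ∈ insert r l, i := by
      rw [Finset.sum_eq_multiset_sum, Multiset.map_id']
    rw [h0, Finset.sum_insert hrl, add_comm]
  have hp : (insert r l).val.prod = r * ∏ i ∈ l, i := by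
    have h0 : (insert r l).val.prod = ∏ i ∈ insert r l, i := by
      rw [Finset.prod_eq_multiset_prod, Multiset.map_id']
    rw [h0, Finset.prod_insert hrl]
  obtain ⟨σ, hσ⟩ := (Equiv.Perm.exists_with_cycleType_iff (Fin n) (m := (insert r l).val)).mpr
    ⟨by rw [Fintype.card_fin, hs]; exact h1, by
      intro a ha
      rw [Finset.mem_val, Finset.mem_insert] at ha
      rcases ha with rfl | ha
      · omega
      · have := (hl a ha).2; omega⟩
  have hcard : Nat.card (centralizer ({σ} : Set (Equiv.Perm (Fin n)))) = r * ∏ i ∈ l, i := by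
    rw [Equiv.Perm.nat_card_centralizer, hσ, Fintype.card_fin, hs, hp]
    have h3 : (n - (∑ i ∈ l, i + r))! = 1 := by
      rw [Nat.factorial_eq_one]
      omega
    have h4 : ∏ x ∈ (insert r l).val.toFinset, ((insert r l).val.count x)! = 1 := by
      apply Finset.prod_eq_one
      intro x _
      rw [Nat.factorial_eq_one]
      exact Multiset.nodup_iff_count_le_one.mp (insert r l).nodup x
    rw [h3, h4, one_mul, mul_one]
  refine ⟨σ, hcard, ?_⟩
  have hodd : Odd (Nat.card (centralizer ({σ} : Set (Equiv.Perm (Fin n))))) := by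
    rw [hcard]
    apply hr.mul
    clear hrl h1 h2 hs hp hσ hcard
    induction l using Finset.induction_on with
    | empty => simp
    | insert a s ha ih =>
      rw [Finset.prod_insert ha]
      exact (hl a (Finset.mem_insert_self a s)).1.mul (ih fun i hi => hl i (Finset.mem_insert_of_mem hi))
  intro g hg
  rw [Equiv.Perm.mem_alternatingGroup]
  have h3 : orderOf g ∣ Nat.card (centralizer ({σ} : Set (Equiv.Perm (Fin n)))) := by
    have h4 := orderOf_dvd_natCard (⟨g, hg⟩ : centralizer ({σ} : Set (Equiv.Perm (Fin n))))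
    rwa [Subgroup.orderOf_mk] at h4
  have h4 : Odd (orderOf g) := Odd.of_dvd_nat hodd h3
  have h5 : Equiv.Perm.sign g ^ orderOf g = 1 := by
    rw [← map_pow, pow_orderOf_eq_one, map_one]
  rcases Int.units_eq_one_or (Equiv.Perm.sign g) with h6 | h6
  · exact h6
  · rw [h6, h4.neg_one_pow] at h5
    exact absurd h5 (by decide)

theorem alt_exists {n r : ℕ} (hr : Odd r) (hr3 : 3 ≤ r) (l : Finset ℕ) (hl : ∀ i ∈ l, Odd i ∧ 3 ≤ i) (hrl : r ∉ l)
    (h1 : ∑ i ∈ l, i + r ≤ n) (h2 : n ≤ ∑ i ∈ l, i + r + 1) :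
    ∃ σ : alternatingGroup (Fin n), Nat.card (centralizer ({σ} : Set (alternatingGroup (Fin n)))) = r * ∏ i ∈ l, i := by
  obtain ⟨σ, hσ, hle⟩ := perm_exists hr hr3 l hl hrl h1 h2
  have hσA : σ ∈ alternatingGroup (Fin n) := hle (mem_centralizer_singleton_iff.mpr rfl)
  refine ⟨⟨σ, hσA⟩, ?_⟩
  rw [← hσ]
  apply Nat.card_congr
  refine ⟨fun x => ⟨x, ?_⟩, fun x => ⟨⟨x, hle x.2⟩, ?_⟩, ?_, ?_⟩
  · rw [mem_centralizer_singleton_iff]
    exact congrArg Subtype.val (mem_centralizer_singleton_iff.mp x.2)
  · rw [mem_centralizer_singleton_iff]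
    exact Subtype.ext (mem_centralizer_singleton_iff.mp x.2)
  · intro x; rfl
  · intro x; rfl

end Cfsg.Agent.H427.Cs
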