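import Mathlib

/-!
# Groups in which every centralizer is small or large (helper427)

`C` finite, every element centralizer `C_C(c)` has order dividing `A` or divisible by `b`, `b` divides `|C|`,
`|C| A < b²`.  The elements with large centralizers form a normal subgroup `B`; for every prime `s` dividing `b`
exactly once in `|C|` and not dividing `A`, the index `|C : B|` divides `s - 1`.
-/

set_option autoImplicit false

namespace Cfsg.Agent.H427.Cs

open Subgroup

/-- a subgroup whose conjugates cover the group is the whole group -/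
theorem eq_top_of_cover {B : Type*} [Group B] [Finite B] (H : Subgroup B) (h : ∀ b : B, ∃ g : B, g⁻¹ * b * g ∈ H) :
    H = ⊤ := by
  classical
  have := Fintype.ofFinite B
  have hfin : ∀ b : B, Fintype (MulAction.fixedBy (B ⧸ H) b) := fun b => Fintype.ofFinite _
  have h1 := MulAction.sum_card_fixedBy_eq_card_orbits_mul_card_group B (B ⧸ H)
  have h2 : Fintype.card (Quotient (MulAction.orbitRel B (B ⧸ H))) = 1 := by
    rw [Fintype.card_eq_one_iff]
    refine ⟨Quotient.mk'' ((1 : B) : B ⧸ H), fun y => ?_⟩
    induction y using Quotient.inductionOn' with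
    | h y =>
      apply Quotient.sound'
      obtain ⟨g, hg⟩ := MulAction.exists_smul_eq B ((1 : B) : B ⧸ H) y
      exact ⟨g, hg⟩
  rw [h2, one_mul] at h1
  have h3 : ∀ b : B, 1 ≤ Fintype.card (MulAction.fixedBy (B ⧸ H) b) := by
    intro b
    obtain ⟨g, hg⟩ := h b
    rw [Nat.one_le_iff_ne_zero, ← Nat.pos_iff_ne_zero, Fintype.card_pos_iff]
    refine ⟨⟨(g : B ⧸ H), ?_⟩⟩
    rw [MulAction.mem_fixedBy]
    change ((b * g : B) : B ⧸ H) = (g : B ⧸ H)
    rw [QuotientGroup.eq, mul_inv_rev, mul_assoc]
    have h4 : (g⁻¹ * b * g)⁻¹ ∈ H := H.inv_mem hg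
    simpa [mul_assoc] using h4
  have h4 : Fintype.card (MulAction.fixedBy (B ⧸ H) (1 : B)) = H.index := by
    rw [← Nat.card_eq_fintype_card, Subgroup.index_eq_card]
    apply Nat.card_congr
    exact (Equiv.subtypeUnivEquiv fun x => by simp)
  have h5 : ∑ b : B, 1 + (H.index - 1) ≤ ∑ b : B, Fintype.card (MulAction.fixedBy (B ⧸ H) b) := by
    rw [← Finset.add_sum_erase _ _ (Finset.mem_univ (1 : B)), ← Finset.add_sum_erase _ _ (Finset.mem_univ (1 : B)), h4]
    have h6 : ∑ b ∈ Finset.univ.erase (1 : B), 1 ≤
        ∑ b ∈ Finset.univ.erase (1 : B), Fintype.card (MulAction.fixedBy (B ⧸ H) b) :=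
      Finset.sum_le_sum fun b _ => h3 b
    have h7 : 1 ≤ H.index := Nat.one_le_iff_ne_zero.mpr H.index_ne_zero_of_finite
    omega
  rw [h1, Finset.sum_const, Finset.card_univ, smul_eq_mul, mul_one] at h5
  have h6 : 1 ≤ H.index := Nat.one_le_iff_ne_zero.mpr H.index_ne_zero_of_finite
  exact Subgroup.index_eq_one.mp (by omega)

variable {C : Type*} [Group C] [Finite C]

theorem card_mul_le (H K : Subgroup C) : Nat.card H * Nat.card K ≤ Nat.card C * Nat.card (H ⊓ K : Subgroup C) := by
  have h1 := (H ⊓ K).card_mul_index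
  have h2 := H.card_mul_index
  have h3 := K.card_mul_index
  have h4 := Subgroup.index_inf_le (H := H) (K := K)
  have hH : 0 < Nat.card H := Nat.card_pos
  have hK : 0 < Nat.card K := Nat.card_pos
  have hi : 0 < H.index := Nat.pos_of_ne_zero H.index_ne_zero_of_finite
  have hj : 0 < K.index := Nat.pos_of_ne_zero K.index_ne_zero_of_finite
  have h5 : Nat.card C ≤ Nat.card (H ⊓ K : Subgroup C) * (H.index * K.index) := by
    rw [← h1]
    exact Nat.mul_le_mul_left _ h4
  have h6 : (Nat.card H * Nat.card K) * (H.index * K.index) =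
      Nat.card C * Nat.card C := by
    rw [mul_mul_mul_comm, h2, h3]
  apply Nat.le_of_mul_le_mul_right _ (Nat.mul_pos hi hj)
  rw [h6, mul_assoc]
  exact Nat.mul_le_mul_left _ h5

theorem card_centralizer_conj (c g : C) :
    Nat.card (centralizer ({g * c * g⁻¹} : Set C)) = Nat.card (centralizer ({c} : Set C)) := by
  apply Nat.card_congr
  refine ⟨fun x => ⟨g⁻¹ * x * g, ?_⟩, fun x => ⟨g * x * g⁻¹, ?_⟩, ?_, ?_⟩
  · have h := mem_centralizer_singleton_iff.mp x.2
    rw [mem_centralizer_singleton_iff]
    have h2 : g⁻¹ * (x * (g * c * g⁻¹)) * g = g⁻¹ * (g * c * g⁻¹ * x) * g := by rw [h]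
    simpa [mul_assoc] using h2
  · have h := mem_centralizer_singleton_iff.mp x.2
    rw [mem_centralizer_singleton_iff]
    have h2 : g * (x * c) * g⁻¹ = g * (c * x) * g⁻¹ := by rw [h]
    simpa [mul_assoc] using h2
  · intro x
    apply Subtype.ext
    simp [mul_assoc]
  · intro x
    apply Subtype.ext
    simp [mul_assoc]

/-- **The normal subgroup of the elements with large centralizer.** -/
theorem exists_normal {A b : ℕ} (hA : 0 < A)
    (hd : ∀ c : C, Nat.card (centralizer ({c} : Set C)) ∣ A ∨ b ∣ Nat.card (centralizer ({c} : Set C)))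
    (hb : b ∣ Nat.card C) (hsize : Nat.card C * A < b ^ 2) :
    ∃ B : Subgroup C, B.Normal ∧ ∀ c : C, c ∈ B ↔ b ∣ Nat.card (centralizer ({c} : Set C)) := by
  refine ⟨{ carrier := {c | b ∣ Nat.card (centralizer ({c} : Set C))}
            mul_mem' := ?_
            one_mem' := ?_
            inv_mem' := ?_ }, ⟨fun c hc g => ?_⟩, fun c => Iff.rfl⟩
  · intro c d hc hdd
    rcases hd (c * d) with h | h
    · exfalso
      have h1 : centralizer ({c} : Set C) ⊓ centralizer ({d} : Set C) ≤ centralizer ({c * d} : Set C) := by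
        intro x hx
        rw [mem_inf, mem_centralizer_singleton_iff, mem_centralizer_singleton_iff] at hx
        rw [mem_centralizer_singleton_iff, ← mul_assoc, hx.1, mul_assoc, hx.2, mul_assoc]
      have h2 : Nat.card (centralizer ({c} : Set C) ⊓ centralizer ({d} : Set C) : Subgroup C) ≤ A :=
        (Subgroup.card_le_of_le h1).trans (Nat.le_of_dvd hA h)
      have h3 := card_mul_le (centralizer ({c} : Set C)) (centralizer ({d} : Set C))
      have h4 : b ≤ Nat.card (centralizer ({c} : Set C)) := Nat.le_of_dvd Nat.card_pos hc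
      have h5 : b ≤ Nat.card (centralizer ({d} : Set C)) := Nat.le_of_dvd Nat.card_pos hdd
      have h6 : b ^ 2 ≤ Nat.card C * A := by
        calc b ^ 2 = b * b := pow_two b
          _ ≤ _ := Nat.mul_le_mul h4 h5
          _ ≤ _ := h3
          _ ≤ _ := Nat.mul_le_mul_left _ h2
      omega
    · exact h
  · change b ∣ Nat.card (centralizer ({1} : Set C))
    have : centralizer ({1} : Set C) = ⊤ := by
      rw [eq_top_iff]
      intro x _
      rw [mem_centralizer_singleton_iff, mul_one, one_mul]
    rw [this, Subgroup.card_top]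
    exact hb
  · intro c hc
    change b ∣ Nat.card (centralizer ({c⁻¹} : Set C))
    have : centralizer ({c⁻¹} : Set C) = centralizer ({c} : Set C) := by
      ext x
      rw [mem_centralizer_singleton_iff, mem_centralizer_singleton_iff]
      constructor
      · intro h
        have h2 : c * (x * c⁻¹) * c = c * (c⁻¹ * x) * c := by rw [h]
        simpa [mul_assoc] using h2.symm
      · intro h
        have h2 : c⁻¹ * (x * c) * c⁻¹ = c⁻¹ * (c * x) * c⁻¹ := by rw [h]
        simpa [mul_assoc] using h2.symm
    rw [this]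
    exact hc
  · change b ∣ Nat.card (centralizer ({g * c * g⁻¹} : Set C))
    rw [card_centralizer_conj]
    exact hc

end Cfsg.Agent.H427.Cs
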