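import Cfsg.Agent.H427.PrimBasic
import Cfsg.Agent.Lib.MinNormal

/-!
# The socle of a primitive group

Commuting transitive subgroups are regular; two commuting regular subgroups are isomorphic.
-/

set_option autoImplicit false

namespace Cfsg.Agent.H427

open MulAction
open scoped Pointwise

variable {G Ω : Type*} [Group G] [MulAction G Ω]

/-- A subgroup commuting with a transitive subgroup is semiregular. -/
theorem semiregular_of_commute [FaithfulSMul G Ω] (M C : Subgroup G) [IsPretransitive C Ω]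
    (hcomm : ∀ m ∈ M, ∀ c ∈ C, m * c = c * m) (m : G) (hm : m ∈ M) (ω : Ω) (h : m • ω = ω) :
    m = 1 := by
  apply FaithfulSMul.eq_of_smul_eq_smul (α := Ω)
  intro ω'
  obtain ⟨c, rfl⟩ := MulAction.exists_smul_eq C ω ω'
  rw [one_smul]
  change m • (c : G) • ω = (c : G) • ω
  rw [smul_smul, hcomm m hm c c.2, mul_smul, h]

/-- If `V ≤ C`, `V` is transitive and `C` semiregular then `V = C`. -/
theorem eq_of_le_of_transitive (V C : Subgroup G) [IsPretransitive V Ω] [Nonempty Ω]
    (hVC : V ≤ C) (hC : ∀ c ∈ C, ∀ ω : Ω, c • ω = ω → c = 1) : V = C := by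
  apply le_antisymm hVC
  intro c hc
  obtain ⟨ω⟩ := ‹Nonempty Ω›
  obtain ⟨v, hv⟩ := MulAction.exists_smul_eq V ω (c • ω)
  have hv' : (v : G) • ω = c • ω := hv
  have h1 : (v : G)⁻¹ * c = 1 := by
    apply hC _ (C.mul_mem (C.inv_mem (hVC v.2)) hc) ω
    rw [mul_smul, ← hv', inv_smul_smul]
  have : c = v := by
    rw [inv_mul_eq_one] at h1
    exact h1.symm
  rw [this]
  exact v.2

/-- Two commuting regular subgroups are isomorphic. -/
theorem nonempty_mulEquiv_of_regular [Nonempty Ω] (M C : Subgroup G)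
    [IsPretransitive M Ω] [IsPretransitive C Ω]
    (hcomm : ∀ m ∈ M, ∀ c ∈ C, m * c = c * m)
    (hM : ∀ m ∈ M, ∀ ω : Ω, m • ω = ω → m = 1)
    (hC : ∀ c ∈ C, ∀ ω : Ω, c • ω = ω → c = 1) : Nonempty (M ≃* C) := by
  obtain ⟨ω⟩ := ‹Nonempty Ω›
  have bM : Function.Bijective (fun m : M => m⁻¹ • ω) := by
    constructor
    · intro m m' h
      have h' : (m : G)⁻¹ • ω = (m' : G)⁻¹ • ω := h
      have h1 : (m : G) * (m' : G)⁻¹ = 1 := by
        apply hM _ (M.mul_mem m.2 (M.inv_mem m'.2)) ω
        rw [mul_smul, ← h', smul_inv_smul]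
      rw [mul_inv_eq_one] at h1
      exact Subtype.ext h1
    · intro ω'
      obtain ⟨m, hm⟩ := MulAction.exists_smul_eq M ω ω'
      exact ⟨m⁻¹, by simpa using hm⟩
  have bC : Function.Bijective (fun c : C => c • ω) := by
    constructor
    · intro m m' h
      have h' : (m : G) • ω = (m' : G) • ω := h
      have h1 : (m' : G)⁻¹ * (m : G) = 1 := by
        apply hC _ (C.mul_mem (C.inv_mem m'.2) m.2) ω
        rw [mul_smul, h', inv_smul_smul]
      rw [inv_mul_eq_one] at h1
      exact Subtype.ext h1.symm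
    · intro ω'
      exact MulAction.exists_smul_eq C ω ω'
  let fM := Equiv.ofBijective _ bM
  let fC := Equiv.ofBijective _ bC
  have key : ∀ m : M, (fC.symm (fM m) : C) • ω = m⁻¹ • ω := fun m => fC.apply_symm_apply (fM m)
  refine ⟨{ fM.trans fC.symm with map_mul' := ?_ }⟩
  intro m m'
  apply fC.injective
  change (fC.symm (fM (m * m')) : C) • ω = (fC.symm (fM m) * fC.symm (fM m') : C) • ω
  rw [key, mul_smul, key]
  have h2 : ∀ (c : C) (x : M) (y : Ω), c • x • y = x • c • y := by
    intro c x y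
    change (c : G) • (x : G) • y = (x : G) • (c : G) • y
    rw [smul_smul, smul_smul, hcomm x x.2 c c.2]
  rw [h2, key, mul_inv_rev, mul_smul]

/-- Internal direct product of two commuting disjoint subgroups. -/
theorem nonempty_prod_mulEquiv_sup (M C : Subgroup G)
    (hcomm : ∀ m ∈ M, ∀ c ∈ C, m * c = c * m) (hdis : M ⊓ C = ⊥) :
    Nonempty (M × C ≃* (M ⊔ C : Subgroup G)) := by
  let f : M × C →* (M ⊔ C : Subgroup G) :=
    { toFun := fun x => ⟨x.1 * x.2, Subgroup.mul_mem_sup x.1.2 x.2.2⟩
      map_one' := by ext; simp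
      map_mul' := by
        rintro ⟨m, c⟩ ⟨m', c'⟩
        ext
        simp only [Prod.mk_mul_mk, Subgroup.coe_mul]
        have := hcomm m' m'.2 c c.2
        calc (m : G) * m' * (c * c') = m * (m' * c) * c' := by group
          _ = m * (c * m') * c' := by rw [this]
          _ = m * c * (m' * c') := by group }
  refine ⟨MulEquiv.ofBijective f ⟨?_, ?_⟩⟩
  · rw [injective_iff_map_eq_one]
    rintro ⟨m, c⟩ h
    have h1 : (m : G) * c = 1 := congrArg Subtype.val h
    have h2 : (m : G) = (c : G)⁻¹ := eq_inv_of_mul_eq_one_left h1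
    have h3 : (m : G) ∈ M ⊓ C := ⟨m.2, by rw [h2]; exact C.inv_mem c.2⟩
    rw [hdis, Subgroup.mem_bot] at h3
    have h4 : (c : G) = 1 := by rw [h3, one_mul] at h1; exact h1
    exact Prod.ext (Subtype.ext h3) (Subtype.ext h4)
  · rintro ⟨x, hx⟩
    have hMC : M ≤ Subgroup.normalizer (C : Set G) := by
      intro m hm
      rw [Subgroup.mem_normalizer_iff]
      intro c
      constructor
      · intro hc
        rw [hcomm m hm c hc, mul_inv_cancel_right]
        exact hc
      · intro hc
        have := hcomm m hm _ hc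
        have h5 : m * c * m⁻¹ = c := by
          have h6 : m * (m * c * m⁻¹) * m⁻¹ = m * c * m⁻¹ := by rw [this]; group
          have h7 : m * c * m⁻¹ = c := by
            have := congrArg (fun z => m⁻¹ * z * m) h6
            simpa [mul_assoc] using this
          exact h7
        rwa [h5] at hc
    have hx' : x ∈ (M : Set G) * (C : Set G) := by
      rw [← Subgroup.coe_mul_of_left_le_normalizer_right M C hMC]
      exact hx
    obtain ⟨m, hm, c, hc, rfl⟩ := hx'
    exact ⟨(⟨m, hm⟩, ⟨c, hc⟩), rfl⟩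

end Cfsg.Agent.H427
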